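import Cfsg.Agent.Inv.Fix
import Cfsg.Agent.SymAlt.Automizer

/-!
Certificates for the square of a conjugacy class.
-/

set_option autoImplicit false

namespace Cfsg.Agent.TwC

open Cfsg.Agent.CGT Cfsg.Agent.Inv Equiv

variable {G : Type*} [Group G] {φ : G →* Perm ℕ} {γ : ℕ → G} {k : ℕ} {ns : List Net} {ts : List Tab} {x : G}

/-- trivial or a product of two conjugates -/
def Gd (x g : G) : Prop := g = 1 ∨ ∃ u v, g = u * x * u⁻¹ * (v * x * v⁻¹)

theorem Gd.conj {g : G} {c : G} (h : Gd x (c * g * c⁻¹)) : Gd x g := by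
  rcases h with h | ⟨u, v, h⟩
  · exact .inl (by simpa [mul_inv_eq_one] using h)
  · refine .inr ⟨c⁻¹ * u, c⁻¹ * v, ?_⟩
    calc g = c⁻¹ * (c * g * c⁻¹) * c := by group
      _ = _ := by rw [h]; group

/-- all the words are good -/
def AllGd (γ : ℕ → G) (x : G) (R : List (List ℕ)) : Prop := ∀ e ∈ R, Gd x (ev (ext γ) e)

theorem AllGd.nth {R : List (List ℕ)} (h : AllGd γ x R) (j : ℕ) : Gd x (ev (ext γ) (nth [] R j)) := by
  rcases Enum.nth_mem_or [] R j with e | e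
  · rw [e]; exact .inl rfl
  · exact h _ e

theorem AllGd.append {R R' : List (List ℕ)} (h : AllGd γ x R) (h' : AllGd γ x R') : AllGd γ x (R ++ R') :=
  fun e he => (List.mem_append.1 he).elim (h e) (h' e)

/-- products of two conjugates -/
noncomputable def sqW (x : List ℕ) (W : List (List ℕ)) : List (List ℕ) := W.map fun w => app x (app w (app x (invW w)))

theorem allGd_sqW (u : List ℕ) (W : List (List ℕ)) : AllGd γ (ev (ext γ) u) (sqW u W) := fun e he => by
  obtain ⟨w, -, rfl⟩ := List.mem_map.1 he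
  exact .inr ⟨1, ev (ext γ) w, by simp only [ev_app, ev_invW]; group⟩

/-- the listed elements are conjugate to members of `R` -/
noncomputable def cjB (k : ℕ) (ts : List Tab) (B : List ℕ) (R : List (List ℕ)) (P : List (List ℕ × List ℕ × ℕ)) : Bool :=
  ptsOK k B && allL P fun p => eqB k ts B (app p.2.1 p.1) (app (nth [] R p.2.2) p.2.1)

theorem AllGd.cj (M : Model φ γ k ns ts) {B : List ℕ} (hB : IsBase φ ⊤ B) {R : List (List ℕ)} (h : AllGd γ x R)
    {P : List (List ℕ × List ℕ × ℕ)} (hc : cjB k ts B R P = true) : AllGd γ x (P.map Prod.fst) := fun e he => by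
  obtain ⟨p, hp, rfl⟩ := List.mem_map.1 he
  rw [cjB, Bool.and_eq_true] at hc
  have h1 := eqB_sound M hB hc.1 trivial trivial (allL_iff.1 hc.2 p hp)
  rw [ev_app, ev_app] at h1
  exact Gd.conj (c := ev (ext γ) p.2.1) (by rw [h1, mul_inv_cancel_right]; exact h.nth _)

theorem closB_append {B L : List ℕ} {E : List (List ℕ)} {P P' : List (List ℕ × List ℕ)} (h : closB k ts B L E P = true)
    (h' : closB k ts B L E P' = true) : closB k ts B L E (P ++ P') = true := by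
  rw [closB, Bool.and_eq_true, allL_iff] at h h' ⊢
  exact ⟨h.1, fun p hp => (List.mem_append.1 hp).elim (h.2 p) (h'.2 p)⟩

/-- the elements of a centraliser -/
noncomputable def clW (u : List ℕ) (n : ℕ) (Cl : List (List ℕ)) : List (List ℕ) :=
  ([] :: Cl).flatMap fun c => (List.range (n + 1)).map fun i => app c (pw u i)

theorem gd_of_cent {u : List ℕ} {Cl R : List (List ℕ)} {n : ℕ} (h : Cent γ u Cl n) (h' : AllGd γ x R)
    (e : R = clW u n Cl) (c : G) (hc : Commute c (ev (ext γ) u)) : Gd x c := by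
  obtain ⟨i, hi, j, rfl⟩ := h c hc
  rw [← ev_pw, ← ev_app]
  exact h' _ (e ▸ List.mem_flatMap.2 ⟨_, List.mem_cons.2 (Enum.nth_mem_or [] Cl j),
    List.mem_map.2 ⟨i, List.mem_range.2 (by omega), rfl⟩⟩)

theorem exists_conj_mem' [Finite G] {p n : ℕ} [Fact p.Prime] {P : Subgroup G} (hP : Nat.card P = p ^ n)
    (hG : ¬ p ^ (n + 1) ∣ Nat.card G) {y : G} {m : ℕ} (hy : y ^ p ^ m = 1) : ∃ g, g * y * g⁻¹ ∈ P :=
  SymAlt.exists_conj_mem_sylow ((IsPGroup.of_card hP).toSylow fun h => hG (by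
    rw [← P.card_mul_index, hP, pow_succ]; exact Nat.mul_dvd_mul_left _ h)) y m hy

theorem gd_of_dvd [Finite G] {p n : ℕ} [Fact p.Prime] {P : Subgroup G} (hP : Nat.card P = p ^ n)
    (hG : ¬ p ^ (n + 1) ∣ Nat.card G) (h : ∀ y ∈ P, y ≠ 1 → ∀ c, Commute c y → Gd x c) {g : G} (hg : p ∣ orderOf g) :
    Gd x g := by
  have h1 := orderOf_pow_orderOf_div (orderOf_pos g).ne' hg
  obtain ⟨c, hc⟩ := exists_conj_mem' hP hG (y := g ^ (orderOf g / p)) (m := 1) (by rw [pow_one, ← orderOf_dvd_iff_pow_eq_one, h1])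
  refine Gd.conj (c := c) (h _ hc (fun e => ?_) _ ?_)
  · rw [show g ^ (orderOf g / p) = 1 by simpa [mul_inv_eq_one] using e, orderOf_one] at h1
    exact (Fact.out : p.Prime).one_lt.ne h1
  · exact ((Commute.refl g).pow_right _).map (MulAut.conj c)

theorem of_isConj {P : Subgroup G} {u : G} (h : ∀ y ∈ P, y ≠ 1 → IsConj y u) (h' : ∀ c, Commute c u → Gd x c) :
    ∀ y ∈ P, y ≠ 1 → ∀ c, Commute c y → Gd x c := fun y hy h1 c hc => by
  obtain ⟨d, rfl⟩ := isConj_iff.1 (h y hy h1)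
  exact Gd.conj (c := d) (h' _ (hc.map (MulAut.conj d)))

theorem cover_tits [Finite G] (hN : Nat.card G = 17971200) {P Q R : Subgroup G} {u v : G} (hx : x ^ 13 = 1) (h1 : x ≠ 1)
    (hP : Nat.card P = 2048) (hP' : ∀ g ∈ P, Gd x g) (hQ : Nat.card Q = 27 ∧ ∀ y ∈ Q, y ≠ 1 → IsConj y u)
    (hR : Nat.card R = 25 ∧ ∀ y ∈ R, y ≠ 1 → IsConj y v) (hu : ∀ c, Commute c u → Gd x c) (hv : ∀ c, Commute c v → Gd x c)
    (hc : ∀ c, Commute c x → Gd x c) :
    ∃ x : G, Odd (orderOf x) ∧ ∀ g : G, g ≠ 1 → ∃ u v : G, g = (u * x * u⁻¹) * (v * x * v⁻¹) := by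
  have : Fact (Nat.Prime 13) := ⟨by norm_num⟩
  have : Fact (Nat.Prime 5) := ⟨by norm_num⟩
  have h2 : orderOf x = 13 := orderOf_eq_prime hx h1
  refine ⟨x, by rw [h2]; decide, fun g hg => Or.resolve_left (?_ : Gd x g) hg⟩
  by_cases h3 : 3 ∣ orderOf g
  · exact gd_of_dvd (n := 3) hQ.1 (by rw [hN]; decide) (of_isConj hQ.2 hu) h3
  by_cases h5 : 5 ∣ orderOf g
  · exact gd_of_dvd (n := 2) hR.1 (by rw [hN]; decide) (of_isConj hR.2 hv) h5
  by_cases h13 : 13 ∣ orderOf g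
  · refine gd_of_dvd (n := 1) (P := Subgroup.zpowers x) (by rw [Nat.card_zpowers, h2]; rfl) (by rw [hN]; decide)
      (fun y hy h4 c h6 => hc c ?_) h13
    have h7 : Subgroup.zpowers y = Subgroup.zpowers x := Subgroup.eq_of_le_of_card_ge (Subgroup.zpowers_le.2 hy) (by
      obtain ⟨i, rfl⟩ := hy
      rw [Nat.card_zpowers, Nat.card_zpowers, h2, orderOf_eq_prime (p := 13) (by
        rw [← zpow_natCast, ← zpow_mul, mul_comm, zpow_mul, zpow_natCast, hx, one_zpow]) h4])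
    obtain ⟨i, rfl⟩ := h7.ge (Subgroup.mem_zpowers x)
    exact h6.zpow_right i
  have h4 := orderOf_dvd_natCard g
  rw [hN, show 17971200 = 2 ^ 11 * 3 ^ 3 * 5 ^ 2 * 13 by norm_num] at h4
  have e := fun p (hp : p.Prime) (h : ¬ p ∣ orderOf g) => (hp.coprime_iff_not_dvd.2 h).symm
  obtain ⟨c, hc⟩ := exists_conj_mem' (p := 2) (n := 11) hP (by rw [hN]; decide) (y := g) (m := 11)
    (orderOf_dvd_iff_pow_eq_one.1 (((e 3 (by norm_num) h3).pow_right 3).dvd_of_dvd_mul_right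
      (((e 5 (by norm_num) h5).pow_right 2).dvd_of_dvd_mul_right ((e 13 (by norm_num) h13).dvd_of_dvd_mul_right h4))))
  exact Gd.conj (hP' _ hc)

end Cfsg.Agent.TwC
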